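import Mathlib
import Cfsg.Agent.Lib.Helper9.S4033.Defs

/-!
# S4033 package [F1]: a noncentral p-regular element with normal centraliser
-/

set_option autoImplicit false

namespace Cfsg.Agent.Lib.Helper75.S4033

open Cfsg.Agent.Lib.Helper9.S4033

universe u

theorem f1_orderOf_conj {G : Type u} [Group G] (v h : G) : orderOf (v * h * v⁻¹) = orderOf h := by
  rw [← MulAut.conj_apply]
  exact MulEquiv.orderOf_eq _ _

/-- the commutator `v h v⁻¹ h⁻¹` commutes with `w` when `v` commutes with `w` and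
`h w h⁻¹ w⁻¹` is central -/
theorem f1_comm {G : Type u} [Group G] (v h w : G) (hvw : v * w = w * v)
    (hz : ∀ g : G, g * (h * w * h⁻¹ * w⁻¹) = (h * w * h⁻¹ * w⁻¹) * g) :
    (v * h * v⁻¹ * h⁻¹) * w = w * (v * h * v⁻¹ * h⁻¹) := by
  set z := h * w * h⁻¹ * w⁻¹ with hzdef
  have hzi : ∀ g : G, g * z⁻¹ = z⁻¹ * g := by
    intro g
    have := hz g
    calc g * z⁻¹ = z⁻¹ * (z * g) * z⁻¹ := by group
      _ = z⁻¹ * (g * z) * z⁻¹ := by rw [this]
      _ = z⁻¹ * g := by group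
  have H2 : h * w = z * w * h := by rw [hzdef]; group
  have hvw' : v⁻¹ * w = w * v⁻¹ := by
    calc v⁻¹ * w = v⁻¹ * (w * v) * v⁻¹ := by group
      _ = v⁻¹ * (v * w) * v⁻¹ := by rw [hvw]
      _ = w * v⁻¹ := by group
  have A : (v * h * v⁻¹) * w = z * w * (v * h * v⁻¹) := by
    calc (v * h * v⁻¹) * w = v * h * (v⁻¹ * w) := by group
      _ = v * h * (w * v⁻¹) := by rw [hvw']
      _ = v * (h * w) * v⁻¹ := by group
      _ = v * (z * w * h) * v⁻¹ := by rw [H2]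
      _ = (v * z) * w * h * v⁻¹ := by group
      _ = (z * v) * w * h * v⁻¹ := by rw [hz v]
      _ = z * (v * w) * h * v⁻¹ := by group
      _ = z * (w * v) * h * v⁻¹ := by rw [hvw]
      _ = z * w * (v * h * v⁻¹) := by group
  have B : h⁻¹ * w = z⁻¹ * w * h⁻¹ := by
    calc h⁻¹ * w = h⁻¹ * (z⁻¹ * (z * w * h)) * h⁻¹ := by group
      _ = h⁻¹ * (z⁻¹ * (h * w)) * h⁻¹ := by rw [H2]
      _ = (h⁻¹ * z⁻¹) * h * w * h⁻¹ := by group
      _ = (z⁻¹ * h⁻¹) * h * w * h⁻¹ := by rw [hzi h⁻¹]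
      _ = z⁻¹ * w * h⁻¹ := by group
  calc (v * h * v⁻¹ * h⁻¹) * w = (v * h * v⁻¹) * (h⁻¹ * w) := by group
    _ = (v * h * v⁻¹) * (z⁻¹ * w * h⁻¹) := by rw [B]
    _ = ((v * h * v⁻¹) * z⁻¹) * w * h⁻¹ := by group
    _ = (z⁻¹ * (v * h * v⁻¹)) * w * h⁻¹ := by rw [hzi]
    _ = z⁻¹ * ((v * h * v⁻¹) * w) * h⁻¹ := by group
    _ = z⁻¹ * (z * w * (v * h * v⁻¹)) * h⁻¹ := by rw [A]
    _ = w * (v * h * v⁻¹ * h⁻¹) := by group

/-- if `c = v h v⁻¹ h⁻¹` commutes with `v` then `v ^ n h v ^ (-n) = c ^ n h` -/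
theorem f1_pow {G : Type u} [Group G] (v h : G)
    (hc : (v * h * v⁻¹ * h⁻¹) * v = v * (v * h * v⁻¹ * h⁻¹)) (n : ℕ) :
    v ^ n * h * (v ^ n)⁻¹ = (v * h * v⁻¹ * h⁻¹) ^ n * h := by
  set c := v * h * v⁻¹ * h⁻¹ with hcdef
  have h1 : v * h * v⁻¹ = c * h := by rw [hcdef]; group
  induction n with
  | zero => simp
  | succ n ih =>
    have hcomm : Commute v c := hc.symm
    have h2 : v * c ^ n = c ^ n * v := (hcomm.pow_right n).eq
    calc v ^ (n + 1) * h * (v ^ (n + 1))⁻¹ = v * (v ^ n * h * (v ^ n)⁻¹) * v⁻¹ := by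
          rw [pow_succ']; group
      _ = v * (c ^ n * h) * v⁻¹ := by rw [ih]
      _ = (v * c ^ n) * h * v⁻¹ := by group
      _ = (c ^ n * v) * h * v⁻¹ := by rw [h2]
      _ = c ^ n * (v * h * v⁻¹) := by group
      _ = c ^ n * (c * h) := by rw [h1]
      _ = c ^ (n + 1) * h := by rw [pow_succ]; group

theorem pkgF1 (hMem : PkgMem.{u}) (hAct : PkgAct.{u}) (hPrim : PkgPrim.{u})
    (hF1a : PkgF1a.{u}) : PkgF1.{u} := by
  intro G _ _ p a hp hap hX hTwo hOp N hN hsolv hx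
  classical
  obtain ⟨x, hxN, hxn, -⟩ := hx
  have hNnc : ¬ N ≤ Subgroup.center G := fun h => hxn (h hxN)
  obtain ⟨K, hKn, -, hKnc, hKcomm, hKp, hKr⟩ := hF1a G p hp hOp N hN hsolv hNnc
  obtain ⟨w, hwK, hwn⟩ := SetLike.not_le_iff_exists.mp hKnc
  have hwp : (orderOf w).Coprime p :=
    Nat.Coprime.coprime_dvd_left (Subgroup.orderOf_dvd_natCard K hwK) hKp
  obtain ⟨A, -, hA, -, hAcent, -⟩ := hMem G p a hp hap hX w hwp hwn
  obtain ⟨s, t, hs, ht, hst, hsp, htp, hNCs, hNCt⟩ := hTwo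
  -- the key claim
  have key : ∀ h ∈ K, h ∈ Subgroup.centralizer ({w} : Set G) := by
    intro h hhK
    refine hPrim G (Subgroup.centralizer ({w} : Set G)) h (isOfFinOrder_of_finite h) ?_
    rintro r j hr ⟨k, hk⟩
    have hh'K : h ^ j ∈ K := K.pow_mem hhK j
    set h' := h ^ j with hh'
    by_cases hk0 : k = 0
    · have : h' = 1 := by
        rw [← orderOf_eq_one_iff, hk, hk0, pow_zero]
      rw [this]
      exact Subgroup.one_mem _
    · have hrK : r ∣ Nat.card K :=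
        (hk ▸ dvd_pow_self r hk0 : r ∣ orderOf h').trans (Subgroup.orderOf_dvd_natCard K hh'K)
      have hrp : r ≠ p := by
        rintro rfl
        exact ((Nat.Prime.coprime_iff_not_dvd hr).mp hKp.symm) hrK
      obtain ⟨t', ht', ht'p, hNC', ht'r⟩ : ∃ t', t'.Prime ∧ t' ≠ p ∧ NC G t' ∧ t' ≠ r := by
        by_cases hsr : s = r
        · exact ⟨t, ht, htp, hNCt, fun e => hst (hsr.trans e.symm)⟩
        · exact ⟨s, hs, hsp, hNCs, hsr⟩
      obtain ⟨v, hvn, ⟨kv, hkv⟩, hvw⟩ := hAct G p a hp hap hX t' ht' ht'p hNC' w hwp hwn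
      have hvA : v ∈ A := by
        rw [hA]
        refine ⟨Subgroup.mem_centralizer_singleton_iff.mpr hvw, ?_⟩
        rw [hkv]
        exact Nat.Coprime.pow_left kv ((Nat.coprime_primes ht' hp).mpr ht'p)
      have hCv := hAcent v hvA hvn
      set c := v * h' * v⁻¹ * h'⁻¹ with hcdef
      have hconjK : v * h' * v⁻¹ ∈ K := hKn.conj_mem h' hh'K v
      have hcr : ∃ kc : ℕ, orderOf c = r ^ kc :=
        hKr r hr (v * h' * v⁻¹) hconjK h'⁻¹ (K.inv_mem hh'K)
          ⟨k, by rw [f1_orderOf_conj]; exact hk⟩ ⟨k, by rw [orderOf_inv]; exact hk⟩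
      obtain ⟨kc, hkc⟩ := hcr
      have hzc : ∀ g : G, g * (h' * w * h'⁻¹ * w⁻¹) = (h' * w * h'⁻¹ * w⁻¹) * g :=
        Subgroup.mem_center_iff.mp (hKcomm h' hh'K w hwK)
      have hcw : c * w = w * c := f1_comm v h' w hvw hzc
      have hcCw : c ∈ Subgroup.centralizer ({w} : Set G) :=
        Subgroup.mem_centralizer_singleton_iff.mpr hcw
      rw [← hCv] at hcCw
      have hcv : c * v = v * c := Subgroup.mem_centralizer_singleton_iff.mp hcCw
      have hpow := f1_pow v h' hcv (orderOf v)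
      rw [pow_orderOf_eq_one, one_mul, inv_one, mul_one] at hpow
      have hcn : c ^ orderOf v = 1 := by
        have : c ^ orderOf v * h' = 1 * h' := by rw [one_mul]; exact hpow.symm
        exact mul_right_cancel this
      have hdvd : orderOf c ∣ orderOf v := orderOf_dvd_of_pow_eq_one hcn
      have hcop : (orderOf c).Coprime (orderOf v) := by
        rw [hkc, hkv]
        exact Nat.Coprime.pow _ _ ((Nat.coprime_primes hr ht').mpr (Ne.symm ht'r))
      have hc1 : c = 1 := by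
        rw [← orderOf_eq_one_iff]
        exact Nat.Coprime.eq_one_of_dvd hcop hdvd
      have hcommvh : h' * v = v * h' := by
        have : v * h' * v⁻¹ * h'⁻¹ = 1 := hc1
        calc h' * v = (v * h' * v⁻¹ * h'⁻¹)⁻¹ * (v * h') := by group
          _ = v * h' := by rw [this]; group
      have : h' ∈ Subgroup.centralizer ({v} : Set G) :=
        Subgroup.mem_centralizer_singleton_iff.mpr hcommvh
      rw [hCv] at this
      exact this
  refine ⟨w, hwn, hwp, fun γ => ?_⟩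
  have hγK : γ * w * γ⁻¹ ∈ K := hKn.conj_mem w hwK γ
  have hγA : γ * w * γ⁻¹ ∈ A := by
    rw [hA]
    exact ⟨key _ hγK, by rw [f1_orderOf_conj]; exact hwp⟩
  have hγn : γ * w * γ⁻¹ ∉ Subgroup.center G := by
    intro hmem
    apply hwn
    have hnorm : (Subgroup.center G).Normal := inferInstance
    have := hnorm.conj_mem _ hmem γ⁻¹
    have e : γ⁻¹ * (γ * w * γ⁻¹) * γ⁻¹⁻¹ = w := by group
    rw [e] at this
    exact this
  exact hAcent _ hγA hγn

end Cfsg.Agent.Lib.Helper75.S4033
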