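import Mathlib
import Cfsg.Agent.Lib.Helper9.S4033.Defs

/-!
# S4033 package [MEM]: the member `A_u` of p-regular elements of `C(u)`
-/

set_option autoImplicit false

namespace Cfsg.Agent.Lib.Helper75.S4033

open Cfsg.Agent.Lib.Helper9.S4033

universe u

/-- the power `c ^ p ^ e` (with `p ^ e` the `p`-part of the order) has order prime to `p` -/
theorem mem_exists_pow_coprime {G : Type u} [Group G] [Finite G] (p : ℕ) (hp : p.Prime) (c : G) :
    ∃ e : ℕ, (orderOf (c ^ p ^ e)).Coprime p := by
  have hc0 : orderOf c ≠ 0 := (orderOf_pos c).ne'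
  obtain ⟨e, n', hn', hc⟩ := Nat.exists_eq_pow_mul_and_not_dvd hc0 p hp.one_lt.ne'
  refine ⟨e, ?_⟩
  have hpe : 0 < p ^ e := pow_pos hp.pos e
  rw [orderOf_pow' c hpe.ne', hc, Nat.gcd_eq_right (dvd_mul_right _ _),
    Nat.mul_div_cancel_left n' hpe]
  exact ((Nat.Prime.coprime_iff_not_dvd hp).mpr hn').symm

theorem mem_pow_eq {a b p k j : ℕ} (hp : p.Prime) (ha : a.Coprime p) (hb : b.Coprime p)
    (h : p ^ k * a = p ^ j * b) : b = a := by
  have h1 : p ^ k ∣ p ^ j := by
    have : p ^ k ∣ p ^ j * b := ⟨a, h.symm⟩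
    exact (Nat.Coprime.pow_left k hb.symm).dvd_of_dvd_mul_right this
  have h2 : p ^ j ∣ p ^ k := by
    have : p ^ j ∣ p ^ k * a := ⟨b, h⟩
    exact (Nat.Coprime.pow_left j ha.symm).dvd_of_dvd_mul_right this
  have h3 : p ^ k = p ^ j := Nat.dvd_antisymm h1 h2
  rw [h3] at h
  exact (Nat.eq_of_mul_eq_mul_left (pow_pos hp.pos j) h).symm

theorem pkgMem : PkgMem.{u} := by
  intro G _ _ p a hp hap hX u hu hun
  classical
  haveI : Fact p.Prime := ⟨hp⟩
  obtain ⟨hcen, k, hk⟩ := hX u hu hun
  set C := Subgroup.centralizer ({u} : Set G) with hC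
  -- the subgroup
  let A : Subgroup G :=
    { carrier := {y | y ∈ C ∧ (orderOf y).Coprime p}
      one_mem' := ⟨C.one_mem, by simp⟩
      mul_mem' := by
        rintro y z ⟨hy, hy'⟩ ⟨hz, hz'⟩
        refine ⟨C.mul_mem hy hz, ?_⟩
        have hcomm : Commute y z := hcen y hy hy' z hz
        have h1 := hcomm.orderOf_mul_dvd_lcm
        have h2 : (orderOf y).lcm (orderOf z) ∣ orderOf y * orderOf z := Nat.lcm_dvd_mul _ _
        exact Nat.Coprime.coprime_dvd_left (h1.trans h2) (Nat.Coprime.mul_left hy' hz')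
      inv_mem' := by
        rintro y ⟨hy, hy'⟩
        exact ⟨C.inv_mem hy, by rw [orderOf_inv]; exact hy'⟩ }
  have hA : ∀ y : G, y ∈ A ↔ y ∈ C ∧ (orderOf y).Coprime p := fun y => Iff.rfl
  have hAC : A ≤ C := fun y hy => ((hA y).mp hy).1
  refine ⟨A, ?_, hA, ?_, ?_, ?_⟩
  · -- commutative
    refine ⟨⟨fun x y => ?_⟩⟩
    apply Subtype.ext
    have hx := (hA x).mp x.2
    have hy := (hA y).mp y.2
    exact hcen x hx.1 hx.2 y hy.1
  · -- the order
    set A' := A.subgroupOf C with hA'
    haveI : A'.Normal := by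
      refine ⟨fun y hy c => ?_⟩
      rw [hA', Subgroup.mem_subgroupOf] at hy ⊢
      have hy2 := (hA _).mp hy
      have hcomm : (y : G) * (c : G) = (c : G) * (y : G) := hcen _ hy2.1 hy2.2 _ c.2
      have : ((c * y * c⁻¹ : C) : G) = (y : G) := by
        push_cast
        rw [← hcomm, mul_inv_cancel_right]
      rw [this]
      exact hy
    have hpq : IsPGroup p (C ⧸ A') := by
      intro g
      induction g using QuotientGroup.induction_on with
      | H c =>
        obtain ⟨e, he⟩ := mem_exists_pow_coprime p hp (c : G)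
        refine ⟨e, ?_⟩
        rw [← QuotientGroup.mk_pow, QuotientGroup.eq_one_iff, hA', Subgroup.mem_subgroupOf]
        rw [Subgroup.coe_pow]
        exact (hA _).mpr ⟨C.pow_mem c.2 _, he⟩
    obtain ⟨j, hj⟩ := hpq.exists_card_eq
    have hcard := Subgroup.card_eq_card_quotient_mul_card_subgroup A'
    have hAA' : Nat.card A' = Nat.card A :=
      Nat.card_congr (Subgroup.subgroupOfEquivOfLe hAC).toEquiv
    rw [hj, hAA', hk] at hcard
    -- `|A|` is prime to `p`
    have hcop : (Nat.card A).Coprime p := by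
      rw [Nat.coprime_comm, Nat.Prime.coprime_iff_not_dvd hp]
      intro hdvd
      obtain ⟨x, hx⟩ := exists_prime_orderOf_dvd_card' (G := A) p hdvd
      have hx2 := ((hA _).mp x.2).2
      rw [Subgroup.orderOf_coe, hx] at hx2
      exact hp.one_lt.ne' (Nat.coprime_self p |>.mp hx2)
    exact mem_pow_eq hp hap hcop hcard
  · -- centralisers of noncentral members
    intro v hv hvn
    obtain ⟨hvC, hvp⟩ := (hA v).mp hv
    obtain ⟨hcenv, -⟩ := hX v hvp hvn
    apply le_antisymm
    · intro c hc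
      have huv : u ∈ Subgroup.centralizer ({v} : Set G) := by
        rw [Subgroup.mem_centralizer_singleton_iff]
        exact (Subgroup.mem_centralizer_singleton_iff.mp hvC).symm
      have := hcenv u huv hu c hc
      rw [hC, Subgroup.mem_centralizer_singleton_iff]
      exact this.symm
    · intro c hc
      have := hcen v hvC hvp c hc
      rw [Subgroup.mem_centralizer_singleton_iff]
      exact this.symm
  · intro c hc y hy
    obtain ⟨hyC, hyp⟩ := (hA y).mp hy
    exact (hcen y hyC hyp c hc).symm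

end Cfsg.Agent.Lib.Helper75.S4033
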